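import Groth.Agent.Dual.H375.StalkIso
import Groth.Agent.Sga67.KosStalk

/-!
# Stalks of kernel and cokernel and bijectivity on sections
-/

set_option autoImplicit false
universe u
open CategoryTheory CategoryTheory.Limits AlgebraicGeometry TopologicalSpace

namespace Groth.Agent.Dual.H366.StalkLoc

open Groth.Agent.PerfA.Restrict Groth.Agent.PerfA.StalkExact Groth.Agent.Sga67.Sec Groth.Agent.Sga67.KosStalk

variable {X : Scheme.{u}} {L K : X.Modules} (g : L ⟶ K) (x : X)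

theorem stalkAb_map_gm {U : X.Opens} (hx : x ∈ U) (s : SM L U) :
    ((stalkAb x).map g).hom (gm L hx s) = gm K hx (ap g U s) := by
  exact TopCat.Presheaf.stalkFunctor_map_germ_apply (C := Ab.{u}) U x hx g.mapPresheaf s

theorem isIso_of_bijective_nhd (H : ∀ U : X.Opens, x ∈ U → ∃ V : X.Opens, V ≤ U ∧ x ∈ V ∧
    Function.Bijective (appS g V)) : IsIso ((stalkAb x).map g) := by
  rw [ConcreteCategory.isIso_iff_bijective]
  constructor
  · rw [injective_iff_map_eq_zero ((stalkAb x).map g).hom]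
    intro t ht
    obtain ⟨U, -, hU, s, rfl⟩ := exists_gm L (U := ⊤) (Opens.mem_top x) t
    have ht' : gm K hU (ap g U s) = 0 := (stalkAb_map_gm g x hU s).symm.trans ht
    obtain ⟨V, hV, hxV, e⟩ := gm_eq_zero _ hU _ ht'
    obtain ⟨V', hV', hxV', hb⟩ := H V hxV
    have e2 : ap g V' (rs _ (hV'.trans hV) s) = 0 := by
      rw [ap_rs, ← rs_rs _ hV hV', e, map_zero]
    have e3 : rs _ (hV'.trans hV) s = 0 := hb.1 (e2.trans (map_zero (appS g V')).symm)
    have e4 : gm L hU s = 0 := by rw [← gm_rs _ (hV'.trans hV) hxV', e3, map_zero]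
    exact e4
  · intro t
    obtain ⟨U, -, hU, s, rfl⟩ := exists_gm K (U := ⊤) (Opens.mem_top x) t
    obtain ⟨V, hV, hxV, hb⟩ := H U hU
    obtain ⟨y, hy⟩ := hb.2 (rs _ hV s)
    refine ⟨gm L hxV (toSM y), ?_⟩
    refine (stalkAb_map_gm g x hxV _).trans ?_
    have e : ap g V (toSM y) = rs _ hV s := hy
    rw [e, gm_rs]

theorem locsurj_of_isIso (h : IsIso ((stalkAb x).map g)) (U : X.Opens) (hx : x ∈ U) (s : Sec K U) :
    ∃ (V : X.Opens) (hV : V ≤ U), x ∈ V ∧ ∃ t, appS g V t = res K hV s := by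
  rw [ConcreteCategory.isIso_iff_bijective] at h
  obtain ⟨t, ht⟩ := h.2 (gm K hx (toSM s))
  obtain ⟨V, hVU, hV, y, rfl⟩ := exists_gm L hx t
  have h1 : gm K hV (ap g V y) = gm K hV (rs _ hVU (toSM s)) :=
    (stalkAb_map_gm g x hV y).symm.trans (ht.trans (gm_rs _ hVU hV _).symm)
  obtain ⟨V', hV', hxV', e⟩ := gm_eq _ hV _ _ h1
  refine ⟨V', hV'.trans hVU, hxV', rs _ hV' y, ?_⟩
  have e' : ap g V' (rs _ hV' y) = rs K (hV'.trans hVU) (toSM s) := by
    rw [ap_rs, e, rs_rs]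
  exact e'

end Groth.Agent.Dual.H366.StalkLoc
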