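import Groth.Agent.Sga67.LocBasisOps

/-!
# Untensoring by an invertible module

`exists_untensor`: a morphism `Θ : L ⊗ N ⟶ K ⊗ N`, with `N` invertible (locally generated by one free generator),
comes from a morphism `L ⟶ K`.
-/

set_option autoImplicit false

universe u

open CategoryTheory CategoryTheory.Limits AlgebraicGeometry Opposite TopologicalSpace
open scoped TensorProduct
open Groth.Agent.Sga67.Sec Groth.Agent.Sga67.LocBasis

namespace Groth.Agent.Dual.H366.Untensor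

variable {X : Scheme.{u}}

/-- Tensoring with a free module of rank one. -/
theorem bijective_tmul {R M N : Type*} [CommRing R] [AddCommGroup M] [Module R M] [AddCommGroup N] [Module R N]
    (b : Module.Basis (Fin 1) R N) :
    Function.Bijective (fun m : M => m ⊗ₜ[R] b 0) := by
  let e : N ≃ₗ[R] R := b.equivFun.trans (LinearEquiv.funUnique (Fin 1) R R)
  have he : e (b 0) = 1 := by simp [e]
  let E : M ⊗[R] N ≃ₗ[R] M := (TensorProduct.congr (LinearEquiv.refl R M) e).trans (TensorProduct.rid R M)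
  have hE : ∀ m : M, E (m ⊗ₜ[R] b 0) = m := fun m => by
    change TensorProduct.rid R M (TensorProduct.congr (LinearEquiv.refl R M) e (m ⊗ₜ[R] b 0)) = m
    rw [TensorProduct.congr_tmul, he, TensorProduct.rid_tmul, one_smul]
    rfl
  constructor
  · intro m m' h
    have h' : m ⊗ₜ[R] b 0 = m' ⊗ₜ[R] b 0 := h
    rw [← hE m, h', hE]
  · intro t
    refine ⟨E t, E.injective ?_⟩
    exact hE _

/-- Gluing: an injective family, compatible with restriction and locally surjective, is surjective. -/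
theorem surjective_of_locally {M P : X.Modules} {U : X.Opens}
    (f : ∀ V : X.Opens, V ≤ U → (Sec M V → Sec P V))
    (hres : ∀ (V V' : X.Opens) (h : V ≤ U) (h' : V' ≤ V) (z : Sec M V),
      f V' (h'.trans h) (res M h' z) = res P h' (f V h z))
    (hinj : ∀ (V : X.Opens) (h : V ≤ U), Function.Injective (f V h))
    {V : X.Opens} (h : V ≤ U) (s : Sec P V)
    (hs : ∀ x ∈ V, ∃ (W : X.Opens) (hW : W ≤ V), x ∈ W ∧ ∃ z : Sec M W, f W (hW.trans h) z = res P hW s) :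
    ∃ z : Sec M V, f V h z = s := by
  choose W hWV hxW z hz using fun (x : V) => hs x.1 x.2
  have hcompat : ∀ x y : V, res M (inf_le_left : W x ⊓ W y ≤ W x) (z x) =
      res M (inf_le_right : W x ⊓ W y ≤ W y) (z y) := by
    intro x y
    apply hinj (W x ⊓ W y) (inf_le_left.trans ((hWV x).trans h))
    rw [hres (W x) (W x ⊓ W y) ((hWV x).trans h) inf_le_left, hz,
      hres (W y) (W x ⊓ W y) ((hWV y).trans h) inf_le_right, hz, res_res, res_res]
  obtain ⟨t, ht, -⟩ := TopCat.Sheaf.existsUnique_gluing' ⟨M.presheaf, M.isSheaf⟩ (fun x : V => W x) V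
    (fun x => homOfLE (hWV x)) (by
      intro x hx
      exact Opens.mem_iSup.mpr ⟨⟨x, hx⟩, hxW ⟨x, hx⟩⟩) (fun x => z x) (by
      intro x y
      exact hcompat x y)
  refine ⟨t, ?_⟩
  apply eq_of_locally
  intro x hx
  refine ⟨W ⟨x, hx⟩, hWV ⟨x, hx⟩, hxW ⟨x, hx⟩, ?_⟩
  rw [← hres, ← hz ⟨x, hx⟩]
  congr 1
  exact ht ⟨x, hx⟩

/-- `ℓ` generates `N` freely over `U`. -/
def IsGen {N : X.Modules} {U : X.Opens} (ℓ : Sec N U) : Prop := IsLocBasis (fun _ : Fin 1 => ℓ)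

theorem IsGen.restrict {N : X.Modules} {U V : X.Opens} {ℓ : Sec N U} (h : IsGen ℓ) (hV : V ≤ U) :
    IsGen (res N hV ℓ) := IsLocBasis.restrict h hV

theorem IsGen.exists_smul {N : X.Modules} {U V : X.Opens} {ℓ : Sec N U} (h : IsGen ℓ) (hV : V ≤ U)
    (n : Sec N V) : ∃ a : Γ(X, V), n = a • res N hV ℓ := by
  obtain ⟨a, rfl⟩ := (h V hV).2 n
  exact ⟨a 0, by rw [comb_apply]; simp⟩

/-- `z ↦ z ⊗ ℓ` on sections. -/
noncomputable def tl (M : X.Modules) {N : X.Modules} {V : X.Opens} (n : Sec N V) :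
    Sec M V →ₗ[Γ(X, V)] Sec (CohB1.tensorMod M N) V :=
  (tau M N V) ∘ₗ (TensorProduct.mk Γ(X, V) (Sec M V) (Sec N V)).flip n

theorem tl_apply (M : X.Modules) {N : X.Modules} {V : X.Opens} (n : Sec N V) (z : Sec M V) :
    tl M n z = tau M N V (z ⊗ₜ[Γ(X, V)] n) := rfl

theorem tl_res (M : X.Modules) {N : X.Modules} {V V' : X.Opens} (h : V' ≤ V) (n : Sec N V) (z : Sec M V) :
    tl M (res N h n) (res M h z) = res _ h (tl M n z) := by
  rw [tl_apply, tl_apply, ← tau_tres, tres_tmul]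

theorem tl_smul (M : X.Modules) {N : X.Modules} {V : X.Opens} (a : Γ(X, V)) (n : Sec N V) (z : Sec M V) :
    tl M (a • n) z = a • tl M n z := by
  rw [tl_apply, tl_apply, TensorProduct.tmul_smul, map_smul]

theorem bijective_tmul_gen (M : X.Modules) {N : X.Modules} {U : X.Opens} {ℓ : Sec N U} (hℓ : IsGen ℓ)
    {V : X.Opens} (hV : V ≤ U) :
    Function.Bijective (fun z : Sec M V => z ⊗ₜ[Γ(X, V)] (res N hV ℓ)) := by
  have h := bijective_tmul (M := Sec M V) (IsLocBasis.basis hℓ hV)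
  rwa [IsLocBasis.basis_apply] at h

theorem tl_injective (M : X.Modules) {N : X.Modules} {U : X.Opens} {ℓ : Sec N U} (hℓ : IsGen ℓ)
    {V : X.Opens} (hV : V ≤ U) : Function.Injective (tl M (res N hV ℓ)) := by
  rw [injective_iff_map_eq_zero]
  intro z hz
  apply eq_of_locally
  intro x hx
  obtain ⟨V', hV', hxV', e⟩ := tau_locinj M N _ hz x hx
  refine ⟨V', hV', hxV', ?_⟩
  have e' : tres M N hV' (z ⊗ₜ[Γ(X, V)] (res N hV ℓ)) = 0 := e
  rw [tres_tmul, res_res] at e'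
  rw [map_zero]
  apply (bijective_tmul_gen M hℓ (hV'.trans hV)).1
  change res M hV' z ⊗ₜ[Γ(X, V')] _ = 0 ⊗ₜ[Γ(X, V')] _
  rw [e', TensorProduct.zero_tmul]

theorem tl_bijective (M : X.Modules) {N : X.Modules} {U : X.Opens} {ℓ : Sec N U} (hℓ : IsGen ℓ)
    {V : X.Opens} (hV : V ≤ U) : Function.Bijective (tl M (res N hV ℓ)) := by
  refine ⟨tl_injective M hℓ hV, fun s => ?_⟩
  refine surjective_of_locally (M := M) (P := CohB1.tensorMod M N) (U := U)
    (fun V h z => tl M (res N h ℓ) z) ?_ (fun V h => tl_injective M hℓ h) hV s ?_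
  · intro V V' h h' z
    rw [← tl_res, res_res]
  · intro x hx
    obtain ⟨W, hW, hxW, t, ht⟩ := tau_locsurj M N s x hx
    obtain ⟨z, hz⟩ := (bijective_tmul_gen M hℓ (hW.trans hV)).2 t
    refine ⟨W, hW, hxW, z, ?_⟩
    rw [← ht, ← hz, tl_apply]

/-- `N` is locally generated by one free section. -/
def LocGen (N : X.Modules) : Prop := ∀ x : X, ∃ (U : X.Opens) (ℓ : Sec N U), x ∈ U ∧ IsGen ℓ

theorem LocGen.exists {N : X.Modules} (h : LocGen N) {x : X} {U : X.Opens} (hx : x ∈ U) :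
    ∃ (V : X.Opens) (ℓ : Sec N V), V ≤ U ∧ x ∈ V ∧ IsGen ℓ := by
  obtain ⟨V, ℓ, hxV, hℓ⟩ := h x
  exact ⟨U ⊓ V, res N inf_le_right ℓ, inf_le_left, ⟨hx, hxV⟩, hℓ.restrict inf_le_right⟩

/-- **Untensoring.** -/
theorem exists_untensor {L K N : X.Modules} (hN : LocGen N)
    (Θ : CohB1.tensorMod L N ⟶ CohB1.tensorMod K N) :
    ∃ g : L ⟶ K, ∀ (V : X.Opens) (n : Sec N V) (y : Sec L V), appS Θ V (tl L n y) = tl K n (appS g V y) := by
  let 𝓑 := {V : X.Opens // ∃ ℓ : Sec N V, IsGen ℓ}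
  have hB : Opens.IsBasis (Set.range (fun V : 𝓑 => V.1)) := by
    rw [Opens.isBasis_iff_nbhd]
    intro U x hx
    obtain ⟨V, ℓ, hVU, hxV, hℓ⟩ := hN.exists hx
    exact ⟨V, ⟨⟨V, ℓ, hℓ⟩, rfl⟩, hxV, hVU⟩
  choose ℓ hℓ using fun V : 𝓑 => V.2
  have hb : ∀ (M : X.Modules) (V : 𝓑), Function.Bijective (tl M (ℓ V)) := fun M V => by
    have := tl_bijective M (hℓ V) (le_refl V.1)
    rwa [res_self] at this
  let e : ∀ V : 𝓑, Sec K V.1 ≃ₗ[Γ(X, V.1)] Sec (CohB1.tensorMod K N) V.1 := fun V =>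
    LinearEquiv.ofBijective _ (hb K V)
  let φ : ∀ V : 𝓑, Sec L V.1 →ₗ[Γ(X, V.1)] Sec K V.1 := fun V =>
    (e V).symm.toLinearMap ∘ₗ (appS Θ V.1) ∘ₗ (tl L (ℓ V))
  have hφ : ∀ (V : 𝓑) (y : Sec L V.1), tl K (ℓ V) (φ V y) = appS Θ V.1 (tl L (ℓ V) y) := fun V y =>
    (e V).apply_symm_apply _
  -- compatibility with arbitrary sections
  have key : ∀ (V V' : 𝓑) (h : V'.1 ≤ V.1) (y : Sec L V.1), φ V' (res L h y) = res K h (φ V y) := by
    intro V V' h y
    apply (hb K V').1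
    rw [hφ]
    obtain ⟨a, ha⟩ := (hℓ V).exists_smul h (ℓ V')
    rw [ha, tl_smul, tl_smul, map_smul, tl_res, tl_res, hφ, ← appS_res]
  obtain ⟨g, hg⟩ := exists_hom_of_basis' hB L K φ key
  refine ⟨g, fun V n y => ?_⟩
  apply eq_of_locally
  intro x hx
  obtain ⟨_, ⟨V', rfl⟩, hxV', hV'⟩ := Opens.isBasis_iff_nbhd.mp hB hx
  refine ⟨V'.1, hV', hxV', ?_⟩
  rw [← appS_res, ← tl_res, ← tl_res, ← appS_res]
  obtain ⟨a, ha⟩ := (hℓ V').exists_smul le_rfl (res N hV' n)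
  rw [res_self] at ha
  rw [ha, tl_smul, tl_smul, map_smul, hg, hφ]

/-- Where `Θ` is bijective, so is `g`. -/
theorem bijective_of_bijective {L K N : X.Modules}
    (Θ : CohB1.tensorMod L N ⟶ CohB1.tensorMod K N) (g : L ⟶ K)
    (hg : ∀ (V : X.Opens) (n : Sec N V) (y : Sec L V), appS Θ V (tl L n y) = tl K n (appS g V y))
    {U : X.Opens} {ℓ : Sec N U} (hℓ : IsGen ℓ) {V : X.Opens} (hV : V ≤ U)
    (h : Function.Bijective (appS Θ V)) : Function.Bijective (appS g V) := by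
  have h1 : (tl K (res N hV ℓ)) ∘ (appS g V) = (appS Θ V) ∘ (tl L (res N hV ℓ)) :=
    funext fun y => (hg V _ y).symm
  have h2 : Function.Bijective ((tl K (res N hV ℓ)) ∘ (appS g V)) := by
    rw [h1]
    exact h.comp (tl_bijective L hℓ hV)
  exact (Function.Bijective.of_comp_iff' (tl_bijective K hℓ hV) _).mp h2

/-- Where `g` is locally surjective, so is `Θ`. -/
theorem locsurj_of_locsurj {L K N : X.Modules} (hN : LocGen N)
    (Θ : CohB1.tensorMod L N ⟶ CohB1.tensorMod K N) (g : L ⟶ K)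
    (hg : ∀ (V : X.Opens) (n : Sec N V) (y : Sec L V), appS Θ V (tl L n y) = tl K n (appS g V y))
    (x : X) (h : ∀ (U : X.Opens) (_ : x ∈ U) (s : Sec K U), ∃ (V : X.Opens) (hV : V ≤ U), x ∈ V ∧
      ∃ t, appS g V t = res K hV s) (U : X.Opens) (hx : x ∈ U) (s : Sec (CohB1.tensorMod K N) U) :
    ∃ (V : X.Opens) (hV : V ≤ U), x ∈ V ∧ ∃ t, appS Θ V t = res _ hV s := by
  obtain ⟨V, ℓ, hVU, hxV, hℓ⟩ := hN.exists hx
  have hb := tl_bijective K hℓ (le_refl V)
  rw [res_self] at hb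
  obtain ⟨z, hz⟩ := hb.2 (res _ hVU s)
  obtain ⟨V', hV', hxV', y, hy⟩ := h V hxV z
  refine ⟨V', hV'.trans hVU, hxV', tl L (res N hV' ℓ) y, ?_⟩
  rw [hg, hy, tl_res, hz, res_res]

end Groth.Agent.Dual.H366.Untensor
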