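import Groth.Agent.Dual.H366.WedgeIso
import Groth.Agent.Dual.H366.Untensor
import Groth.Agent.Dual.H366.StalkLoc
import Groth.Agent.Dual.H366.ConSec
import Groth.Agent.Dual.H366.ExtQCoh
import Groth.Agent.Dual.H328.SmoothPt

/-!
# The fundamental class from a twisted identification

`s : X ⟶ W` a closed immersion with conormal module locally free of rank `m`, `w : W ⟶ Y` smooth of relative
dimension `n = r + m`, `ω ⊗ Λ^m C ≅ s^* Λ^n Ω_{W/Y}`.  Then there is `Λ^r Ω_{X/Y} ⟶ ω`, an isomorphism exactly at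
the smooth points.
-/

set_option autoImplicit false

universe u

open CategoryTheory CategoryTheory.Limits AlgebraicGeometry Opposite TopologicalSpace
open scoped TensorProduct
open Groth.Agent.Sga67.Sec Groth.Agent.Sga67.ExtSheaf Groth.Agent.Sga67.LocBasis

namespace Groth.Agent.Dual.H366.ClassMain

open ConSec Conormal WedgeIso Untensor

variable {X W Y : Scheme.{u}} (s : X ⟶ W) [IsClosedImmersion s] (w : W ⟶ Y)
  [QuasiCompact (pullback.diagonal w)] [QuasiCompact (pullback.diagonal (s ≫ w))]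

omit [QuasiCompact (pullback.diagonal w)] [QuasiCompact (pullback.diagonal (s ≫ w))] in
theorem span_cS {V : W.Opens} (hV : IsAffineOpen V) :
    Submodule.span Γ(X, s ⁻¹ᵁ V) (Set.range (cS s V)) = ⊤ :=
  span_secS s (ClSub.idealMod s.ker) (PerfA.IdealModule.isQCoh_idealMod _) hV (hV.preimage s)
    (fun x : Sec (ClSub.idealMod s.ker) V => x) (by
      rw [show Set.range (fun x : Sec (ClSub.idealMod s.ker) V => x) = Set.univ from Set.range_id]
      exact Submodule.span_univ)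

theorem pMap_dMap (V : W.Opens) (hV : IsAffineOpen V) (y : Sec (Omega.conormal s) (s ⁻¹ᵁ V)) :
    appS (pMap s w) (s ⁻¹ᵁ V) (appS (dMap s w) (s ⁻¹ᵁ V) y) = 0 := by
  have key : appS (pMap s w) (s ⁻¹ᵁ V) ∘ₗ appS (dMap s w) (s ⁻¹ᵁ V) = 0 := by
    refine LinearMap.ext_on_range (v := cS s V) (span_cS s hV) fun c => ?_
    have h0 : s.app V (valS s V c) = 0 := (app_eq_zero_iffS s V _).mpr ⟨c, rfl⟩
    rw [LinearMap.comp_apply, dMap_cS, pMap_secS, h0, map_zero, LinearMap.zero_apply]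
  exact LinearMap.congr_fun key y

theorem exists_preimage (x : X) (O : X.Opens) (hx : x ∈ O) : ∃ O' : W.Opens, s x ∈ O' ∧ s ⁻¹ᵁ O' ≤ O := by
  obtain ⟨O', hO', h⟩ := s.isClosedEmbedding.isInducing.isOpen_iff.mp O.2
  refine ⟨⟨O', hO'⟩, ?_, ?_⟩
  · have : x ∈ s ⁻¹' O' := by rw [h]; exact hx
    exact this
  · intro y hy
    have : y ∈ s ⁻¹' O' := hy
    rw [h] at this
    exact this

/-- The good charts. -/
structure GoodCh (m n : ℕ) where
  ch : Ch w
  c : Fin m → Sec (Omega.conormal s) (s ⁻¹ᵁ ch.V)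
  hc : IsLocBasis c
  e : Fin n → Sec ((Scheme.Modules.pullback s).obj (Omega.sheaf w)) (s ⁻¹ᵁ ch.V)
  he : IsLocBasis e

variable {s w} in
/-- The corresponding affine open of `X`. -/
def GoodCh.B {m n : ℕ} (g : GoodCh s w m n) : X.affineOpens := ⟨s ⁻¹ᵁ g.ch.V, g.ch.hV.preimage s⟩

omit [QuasiCompact (pullback.diagonal w)] [QuasiCompact (pullback.diagonal (s ≫ w))] in
theorem exists_goodCh {m n : ℕ} (hC : FlatMod.IsFinLocFreeOfRank m (Omega.conormal s))
    (hΩ : FlatMod.IsFinLocFreeOfRank n (Omega.sheaf w)) (x : X) (O : X.Opens) (hx : x ∈ O) :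
    ∃ g : GoodCh s w m n, x ∈ g.B.1 ∧ g.B.1 ≤ O := by
  obtain ⟨U₁, hxU₁, h1⟩ := hC x
  obtain ⟨c, hc⟩ := nonempty_restrict_iso_iff.mp h1
  obtain ⟨O₂, hxO₂, h2⟩ := hΩ (s x)
  obtain ⟨e, he⟩ := nonempty_restrict_iso_iff.mp h2
  obtain ⟨O', hxO', hO'⟩ := exists_preimage s x (O ⊓ U₁) ⟨hx, hxU₁⟩
  obtain ⟨ch, hch, hchO⟩ := exists_ch w (s x) (O' ⊓ O₂) ⟨hxO', hxO₂⟩
  have hle1 : s ⁻¹ᵁ ch.V ≤ O ⊓ U₁ := (s.preimage_mono (hchO.trans inf_le_left)).trans hO'
  have hle2 : s ⁻¹ᵁ ch.V ≤ s ⁻¹ᵁ O₂ := s.preimage_mono (hchO.trans inf_le_right)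
  exact ⟨{ ch := ch
           c := _
           hc := hc.restrict (hle1.trans inf_le_right)
           e := _
           he := (Krr.H487.LocBasisPull.isLocBasis_pbS s he).restrict hle2 }, hch, hle1.trans inf_le_left⟩

omit [QuasiCompact (pullback.diagonal w)] [QuasiCompact (pullback.diagonal (s ≫ w))] in
theorem isBasis_goodCh {m n : ℕ} (hC : FlatMod.IsFinLocFreeOfRank m (Omega.conormal s))
    (hΩ : FlatMod.IsFinLocFreeOfRank n (Omega.sheaf w)) :
    Opens.IsBasis (Set.range fun g : GoodCh s w m n => g.B.1) := by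
  rw [Opens.isBasis_iff_nbhd]
  intro O x hx
  obtain ⟨g, hg, hgO⟩ := exists_goodCh s w hC hΩ x O hx
  exact ⟨_, ⟨g, rfl⟩, hg, hgO⟩

/-- The data for the wedge morphism. -/
noncomputable def dat (m n : ℕ) : Dat (ι := GoodCh s w m n) GoodCh.B m n (dMap s w) (pMap s w) where
  surj g := surj_pMap s w g.ch
  comp g y := pMap_dMap s w g.ch.V g.ch.hV y
  ex g y hy := ex_pMap s w g.ch y hy
  c g := g.c
  hc g := g.hc
  e g := g.e
  he g := g.he

variable [Smooth w] [LocallyOfFinitePresentation (s ≫ w)]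

/-- The smooth points in terms of complementary determinants. -/
theorem mem_smoothLocus_iff {r m n : ℕ} (h : r + m = n) (g : GoodCh s w m n) (x : X) (hx : x ∈ g.B.1) :
    x ∈ (s ≫ w).smoothLocus ↔
      ∃ y : Fin r → Sec ((Scheme.Modules.pullback s).obj (Omega.sheaf w)) g.B.1,
        evK hx (cdet (dat s w m n) h g y) ≠ 0 := by
  let := (X.evaluation (s ⁻¹ᵁ g.ch.V) x hx).hom.toAlgebra
  rw [H328.SmoothPt.mem_smoothLocus_iff s w g.ch x hx,
    H328.DetCrit.injective_baseChange_iff (g.hc.basis le_rfl) (g.he.basis le_rfl) _ h]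
  have hc' : g.c = g.hc.basis (le_refl (s ⁻¹ᵁ g.ch.V)) := funext fun j => by
    rw [IsLocBasis.basis_apply, res_self]
  refine exists_congr fun y => ?_
  rw [← hc']
  rfl

theorem class_main {r m n : ℕ} (h : r + m = n)
    (hC : FlatMod.IsFinLocFreeOfRank m (Omega.conormal s))
    (hΩ : FlatMod.IsFinLocFreeOfRank n (Omega.sheaf w))
    {L LC : X.Modules} (hL : ExtPow.IsExtPow r (Omega.sheaf (s ≫ w)) L)
    (hLC : ExtPow.IsExtPow m (Omega.conormal s) LC) {D : W.Modules} (hD : ExtPow.IsExtPow n (Omega.sheaf w) D)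
    {ω : X.Modules} (e : Nonempty (CohB1.tensorMod ω LC ≅ (Scheme.Modules.pullback s).obj D)) :
    ∃ cl : L ⟶ ω, ∀ x : X, (IsZero ((kernel cl).presheaf.stalk x) ∧ IsZero ((cokernel cl).presheaf.stalk x)) ↔
      x ∈ (s ≫ w).smoothLocus := by
  obtain ⟨e⟩ := e
  have hB := isBasis_goodCh s w hC hΩ
  have hΩ' : FlatMod.IsFinLocFree (Omega.sheaf w) := fun x => by
    obtain ⟨U, hx, hU⟩ := hΩ x
    exact ⟨U, n, hx, hU⟩
  have hD' : ExtPow.IsExtPow n ((Scheme.Modules.pullback s).obj (Omega.sheaf w))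
      ((Scheme.Modules.pullback s).obj D) :=
    Krr.H487.ExtPull.isExtPow_pullback s hΩ' hD
      (ExtQCoh.exists_isExtPow n (VarietyB.PullSec.isQCoh_pullback s _ (ConSec.isQCoh_omega w)))
  obtain ⟨φW, hφW⟩ := exists_phi hL
  obtain ⟨φC, hφC⟩ := exists_phi hLC
  obtain ⟨ψ, hψ⟩ := exists_phi hD'
  obtain ⟨g, hg⟩ := WedgeSheaf.exists_wdg hB (dat s w m n).isWedgeDatum h φW hφW φC hφC ψ hψ
  have hN : LocGen LC := fun x => by
    obtain ⟨k, hk, -⟩ := exists_goodCh s w hC hΩ x ⊤ trivial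
    exact ⟨k.B.1, _, hk, isLocBasis_top φC hφC (U := k.B) k.hc⟩
  let Θ : CohB1.tensorMod L LC ⟶ CohB1.tensorMod ω LC := g ≫ e.inv
  obtain ⟨cl, hcl⟩ := exists_untensor hN Θ
  refine ⟨cl, fun x => ?_⟩
  rw [← H375.StalkIso.isIso_stalk_iff]
  constructor
  · intro hiso
    have h1 := locsurj_of_locsurj hN Θ cl hcl x (StalkLoc.locsurj_of_isIso cl x hiso)
    obtain ⟨k, hxk, y, hy⟩ := exists_of_surjective hB (dat s w m n) h φW φC ψ hψ g hg x (by
      intro U hx t
      obtain ⟨V, hV, hxV, z, hz⟩ := h1 U hx (appS e.inv U t)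
      refine ⟨V, hV, hxV, z, ?_⟩
      have h2 : appS e.inv V (appS g V z) = appS e.inv V (res _ hV t) := by
        rw [appS_res]
        exact hz
      have h3 := congrArg (appS e.hom V) h2
      rwa [appS_inv_hom, appS_inv_hom] at h3)
    exact (mem_smoothLocus_iff s w h k x hxk).mpr ⟨y, hy⟩
  · intro hx
    obtain ⟨k, hk, -⟩ := exists_goodCh s w hC hΩ x ⊤ trivial
    obtain ⟨y, hy⟩ := (mem_smoothLocus_iff s w h k x hk).mp hx
    obtain ⟨V, hV, hxV, hb⟩ := bijective_wdg hB (dat s w m n) h φW hφW φC hφC ψ hψ g hg k x hk y hy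
    apply StalkLoc.isIso_of_bijective_nhd
    intro U hxU
    obtain ⟨U', ℓ, hU', hxU', hℓ⟩ := hN.exists (show x ∈ U ⊓ V from ⟨hxU, hxV⟩)
    refine ⟨U', hU'.trans inf_le_left, hxU', ?_⟩
    refine bijective_of_bijective Θ cl hcl hℓ le_rfl ?_
    have h1 := hb U' (hU'.trans inf_le_right)
    refine Function.Bijective.comp (g := appS e.inv U') ⟨?_, ?_⟩ h1
    · intro a b hab
      have := congrArg (appS e.hom U') hab
      rwa [appS_inv_hom, appS_inv_hom] at this
    · intro a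
      exact ⟨appS e.hom U' a, appS_hom_inv e U' a⟩

end Groth.Agent.Dual.H366.ClassMain
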