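import Groth.Agent.Dual.H366.SmoothLCI
import Groth.Agent.Dual.H375.LciLocus
import Groth.Agent.Divis.RegStalk
import Groth.Agent.Flat2H.KoszulNoeth

/-!
# Closed immersions of lci schemes into smooth schemes are regular
-/

set_option autoImplicit false
universe u

open CategoryTheory AlgebraicGeometry

namespace Groth.Agent.Dual.H366.LciImm

open LCI Groth.Agent.Flat2H.KoszulIdeal Groth.Agent.Flat2H.KoszulNoeth

/-- Over affine opens the ideal is Koszul-regular. -/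
theorem isKoszulRegularIdeal {X W Y : Scheme.{u}} (s : X ⟶ W) [IsClosedImmersion s] (w : W ⟶ Y) [Smooth w]
    (hf : Dual3.IsLCIMor (s ≫ w)) {T : Y.Opens} (hT : IsAffineOpen T) (V : W.affineOpens)
    (e : V.1 ≤ w ⁻¹ᵁ T) : IsKoszulRegularIdeal (s.ker.ideal V) := by
  rw [H375.LciLocus.isLCIMor_iff] at hf
  have e' : s ⁻¹ᵁ V.1 ≤ (s ≫ w) ⁻¹ᵁ T := s.preimage_mono e
  have h1 := hf (s ⁻¹ᵁ V.1) T (V.2.preimage s) hT e'
  let : Algebra Γ(Y, T) Γ(X, s ⁻¹ᵁ V.1) := ((s ≫ w).appLE T (s ⁻¹ᵁ V.1) e').hom.toAlgebra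
  let : Algebra Γ(Y, T) Γ(W, V.1) := (w.appLE T V.1 e).hom.toAlgebra
  have hsm : Algebra.Smooth Γ(Y, T) Γ(W, V.1) :=
    HasRingHomProperty.appLE (P := @Smooth) w inferInstance ⟨T, hT⟩ V e
  let φ : Γ(W, V.1) →ₐ[Γ(Y, T)] Γ(X, s ⁻¹ᵁ V.1) :=
    { (s.app V.1).hom with
      commutes' := fun a => by
        change s.app V.1 (w.appLE T V.1 e a) = (s ≫ w).appLE T (s ⁻¹ᵁ V.1) e' a
        rw [← Scheme.Hom.appLE_comp_appLE s w T V.1 (s ⁻¹ᵁ V.1) e le_rfl, Scheme.Hom.app_eq_appLE]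
        rfl }
  have h2 := SmoothLCI.isKoszulRegularIdeal_ker_of_smooth h1 φ (s.app_surjective V.1 V.2)
  rw [Scheme.Hom.ker_apply]
  exact h2

theorem regAt {X W Y : Scheme.{u}} [IsLocallyNoetherian W] (s : X ⟶ W) [IsClosedImmersion s] (w : W ⟶ Y)
    [Smooth w] (hf : Dual3.IsLCIMor (s ≫ w)) (z : X) : Divis.RegImm.RegAt s.ker (s z) := by
  obtain ⟨T, hT, hzT, -⟩ := exists_isAffineOpen_mem_and_subset (x := w (s z)) (U := ⊤) trivial
  obtain ⟨V, hV, hzV, hVT⟩ := exists_isAffineOpen_mem_and_subset (x := s z) (U := w ⁻¹ᵁ T) hzT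
  have h1 := isKoszulRegularIdeal s w hf hT ⟨V, hV⟩ hVT
  rw [Divis.RegStalk.regAt_iff_stalk s.ker (s z) ⟨V, hV⟩ hzV]
  let := W.presheaf.algebra_section_stalk ⟨s z, hzV⟩
  have hloc := hV.isLocalization_stalk ⟨s z, hzV⟩
  let p := (hV.primeIdealOf ⟨s z, hzV⟩).asIdeal
  obtain ⟨g, hg, h2⟩ := IsKoszulRegularIdeal.exists_genK h1 p
  have : Module.Flat Γ(W, V) (W.presheaf.stalk (s z)) := IsLocalization.flat _ p.primeCompl
  obtain ⟨l, hl, hl'⟩ := h2 (W.presheaf.stalk (s z)) (IsLocalization.map_units _ (⟨g, hg⟩ : p.primeCompl))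
  refine ⟨l, (isKoszulRegularSeq_iff_isWeaklyRegular fun f hfl => ?_).mp hl, hl'⟩
  have h3 : f ∈ (s.ker.ideal ⟨V, hV⟩).map (algebraMap Γ(W, V) (W.presheaf.stalk (s z))) := by
    rw [hl']
    exact Ideal.subset_span hfl
  have h4 : (s.ker.ideal ⟨V, hV⟩).map (algebraMap Γ(W, V) (W.presheaf.stalk (s z))) ≤
      IsLocalRing.maximalIdeal _ := by
    have h5 := Divis.RegStalk.ker_stalkMap s z ⟨V, hV⟩ hzV
    have h6 : RingHom.ker (s.stalkMap z).hom ≤ IsLocalRing.maximalIdeal _ :=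
      IsLocalRing.le_maximalIdeal (RingHom.ker_ne_top _)
    rw [h5] at h6
    exact h6
  exact h4 h3

theorem isRegularClosedImmersion {X W Y : Scheme.{u}} [IsLocallyNoetherian W] (s : X ⟶ W)
    [IsClosedImmersion s] (w : W ⟶ Y) [Smooth w] (hf : Dual3.IsLCIMor (s ≫ w)) :
    Mor2.IsRegularClosedImmersion s := by
  rw [Divis.RegImm.isRegularClosedImmersion_iff]
  exact ⟨inferInstance, fun z => regAt s w hf z⟩

end Groth.Agent.Dual.H366.LciImm
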