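import Groth.Agent.S1676
import Groth.Agent.Divis.RegImm
import Groth.Agent.Flat2H.LCIMaps2
import Groth.Agent.Flat2H.RegularLCI
import Mathlib.RingTheory.Smooth.Flat

/-!
# Local complete intersections inside smooth algebras

If `A → R` is smooth, `A → B` is a local complete intersection and `R → B` is surjective, then its kernel is
Koszul-regular.
-/

set_option autoImplicit false
universe u

open CategoryTheory AlgebraicGeometry

namespace Groth.Agent.Dual.H366.SmoothLCI

open LCI Groth.Agent.Flat2H.KoszulIdeal Groth.Agent.Flat2H.LCIMaps Groth.Agent.Flat2H.LCIMaps2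
open Groth.Agent.Flat2H.KoszulWrap
open scoped TensorProduct

/-- Regular generators near a point of `Spec R`, in terms of localizations of `R`. -/
theorem exists_away {R : CommRingCat.{u}} (I : (Spec R).IdealSheafData) (x : Spec R)
    (h : Divis.RegImm.RegAt I x) : ∃ g : R, g ∉ x.asIdeal ∧ ∃ (A' : Type u) (_ : CommRing A')
      (_ : Algebra R A') (_ : IsLocalization.Away g A'),
      GenK (((I.ideal ⟨⊤, isAffineOpen_top (Spec R)⟩).comap (Scheme.ΓSpecIso R).inv.hom).map
        (algebraMap R A')) := by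
  obtain ⟨U, hzU, hU⟩ := h
  obtain ⟨g₀, hgU, hzg⟩ := (isAffineOpen_top (Spec R)).exists_basicOpen_le ⟨x, hzU⟩ trivial
  let g : R := (Scheme.ΓSpecIso R).hom g₀
  have hg₀ : (Spec R).basicOpen g₀ = PrimeSpectrum.basicOpen g := basicOpen_eq_of_affine' g₀
  let D : (Spec R).Opens := PrimeSpectrum.basicOpen g
  rw [hg₀] at hgU hzg
  have hD : IsAffineOpen D := by
    change IsAffineOpen (X := Spec R) (PrimeSpectrum.basicOpen g)
    rw [← hg₀]
    exact (isAffineOpen_top (Spec R)).basicOpen g₀
  obtain ⟨l, hl, hl'⟩ := Divis.RegImm.RegOn.mono (V := ⟨D, hD⟩) hU hgU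
  refine ⟨g, hzg, Γ(Spec R, D), inferInstance, inferInstance,
    inferInstanceAs (IsLocalization.Away g Γ(Spec R, PrimeSpectrum.basicOpen g)), l,
    Flat2H.RegularLCI.isKoszulRegularSeq_of_isWeaklyRegular _ l hl, ?_⟩
  rw [← hl', ← I.map_ideal (U := ⟨D, hD⟩) (V := ⟨⊤, isAffineOpen_top (Spec R)⟩)
      (show D ≤ ⊤ from le_top)]
  have h5 : I.ideal ⟨⊤, isAffineOpen_top (Spec R)⟩ =
      Ideal.map (Scheme.ΓSpecIso R).inv.hom
        ((I.ideal ⟨⊤, isAffineOpen_top (Spec R)⟩).comap (Scheme.ΓSpecIso R).inv.hom) :=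
    (Ideal.map_comap_of_surjective _
      (ConcreteCategory.bijective_of_isIso (Scheme.ΓSpecIso R).inv).2 _).symm
  conv_rhs => rw [h5, Ideal.map_map]
  rfl

/-- The kernel of a retraction of a smooth algebra is Koszul-regular. -/
theorem isKoszulRegularIdeal_ker_retraction {B S : Type u} [CommRing B] [CommRing S] [Algebra B S]
    [Algebra.Smooth B S] (π : S →ₐ[B] B) : IsKoszulRegularIdeal (RingHom.ker π.toRingHom) := by
  have hs : Function.Surjective π := fun b => ⟨algebraMap B S b, π.commutes b⟩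
  let f : Spec (.of S) ⟶ Spec (.of B) := Spec.map (CommRingCat.ofHom (algebraMap B S))
  let σ : Spec (.of B) ⟶ Spec (.of S) := Spec.map (CommRingCat.ofHom π.toRingHom)
  have hσ : σ ≫ f = 𝟙 _ := by
    rw [← Spec.map_comp, ← CommRingCat.ofHom_comp]
    have : π.toRingHom.comp (algebraMap B S) = RingHom.id B := RingHom.ext fun b => π.commutes b
    rw [this]
    exact Spec.map_id _
  have h1 : Smooth f := by
    rw [HasRingHomProperty.Spec_iff (P := @Smooth)]
    change (algebraMap B S).Smooth
    rw [RingHom.smooth_algebraMap]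
    infer_instance
  have h2 : IsClosedImmersion σ := IsClosedImmersion.spec_of_surjective _ hs
  have h3 := S1676.result f σ hσ
  rw [Divis.RegImm.isRegularClosedImmersion_iff] at h3
  refine isKoszulRegularIdeal_of_exists fun p hp hI => ?_
  -- the point
  have hp' : (p.map π.toRingHom).IsPrime := Ideal.map_isPrime_of_surjective (f := π.toRingHom) hs hI
  let z : Spec (.of B) := ⟨p.map π.toRingHom, hp'⟩
  have hz : (σ z).asIdeal = p := by
    change (p.map π.toRingHom).comap π.toRingHom = p
    rw [Ideal.comap_map_of_surjective' π.toRingHom hs]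
    exact sup_eq_left.2 hI
  obtain ⟨g, hg, A', i1, i2, i3, h4⟩ := exists_away σ.ker (σ z) (h3.2 z)
  refine ⟨g, hz ▸ hg, A', i1, i2, i3, ?_⟩
  have h5 : (σ.ker.ideal ⟨⊤, isAffineOpen_top (Spec (.of S))⟩).comap (Scheme.ΓSpecIso (.of S)).inv.hom =
      RingHom.ker π.toRingHom := by
    have h5 : σ.appTop = (Scheme.ΓSpecIso (.of S)).hom ≫ CommRingCat.ofHom π.toRingHom ≫
        (Scheme.ΓSpecIso (.of B)).inv := by
      rw [← Category.assoc, ← Scheme.ΓSpecIso_naturality, Category.assoc, Iso.hom_inv_id, Category.comp_id]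
    have h6 : σ.ker.ideal ⟨⊤, isAffineOpen_top (Spec (.of S))⟩ = RingHom.ker σ.appTop.hom :=
      Scheme.Hom.ker_apply σ _
    ext x
    rw [h6, Ideal.mem_comap, RingHom.mem_ker, RingHom.mem_ker, h5]
    have h7 : ((Scheme.ΓSpecIso (.of S)).hom ≫ CommRingCat.ofHom π.toRingHom ≫
      (Scheme.ΓSpecIso (.of B)).inv).hom ((Scheme.ΓSpecIso (.of S)).inv.hom x) =
      (Scheme.ΓSpecIso (.of B)).inv.hom (π.toRingHom x) := by
      change (Scheme.ΓSpecIso (.of B)).inv.hom (π.toRingHom
        ((Scheme.ΓSpecIso (.of S)).hom ((Scheme.ΓSpecIso (.of S)).inv x))) = _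
      rw [Iso.inv_hom_id_apply]
    rw [h7]
    constructor
    · intro h
      exact (ConcreteCategory.bijective_of_isIso (Scheme.ΓSpecIso (.of B)).inv).1
        (h.trans (map_zero _).symm)
    · intro h; rw [h, map_zero]
  rwa [h5] at h4

/-- **LCI in smooth.** -/
theorem isKoszulRegularIdeal_ker_of_smooth {A R B : Type u} [CommRing A] [CommRing R] [CommRing B]
    [Algebra A R] [Algebra A B] [Algebra.Smooth A R] (h : IsLCI A B) (φ : R →ₐ[A] B)
    (hφ : Function.Surjective φ) : IsKoszulRegularIdeal (RingHom.ker φ.toRingHom) := by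
  obtain ⟨-, n, ψ, hψ, hk⟩ := h
  let P := MvPolynomial (Fin n) A
  -- `u : R ⊗ P → R ⊗ B`
  let u : R ⊗[A] P →ₐ[R] R ⊗[A] B := Algebra.TensorProduct.map (AlgHom.id R R) ψ
  have hu : Function.Surjective u := Algebra.TensorProduct.map_surjective _ _ Function.surjective_id hψ
  have hker : RingHom.ker u.toRingHom =
      (RingHom.ker ψ.toRingHom).map (Algebra.TensorProduct.includeRight : P →ₐ[A] R ⊗[A] P) :=
    Algebra.TensorProduct.lTensor_ker ψ hψ
  have : Module.Flat A R := Algebra.Smooth.flat A R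
  have hu' : KerK u.toRingHom := by
    let := (Algebra.TensorProduct.includeRight : P →ₐ[A] R ⊗[A] P).toRingHom.toAlgebra
    have : Module.Flat P (R ⊗[A] P) := flat_includeRight A R P
    unfold KerK
    rw [hker]
    exact IsKoszulRegularIdeal.map (B := R ⊗[A] P) hk
  -- `π : R ⊗ B → B`
  let π₀ : R ⊗[A] B →ₐ[A] B := Algebra.TensorProduct.productMap φ (AlgHom.id A B)
  let : Algebra B (R ⊗[A] B) := (Algebra.TensorProduct.includeRight : B →ₐ[A] R ⊗[A] B).toRingHom.toAlgebra
  let π : R ⊗[A] B →ₐ[B] B :=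
    { π₀.toRingHom with
      commutes' := fun b => by
        change π₀ (1 ⊗ₜ b) = b
        simp [π₀] }
  have hsm : Algebra.Smooth B (R ⊗[A] B) := by
    let e : B ⊗[A] R ≃ₐ[B] R ⊗[A] B :=
      { Algebra.TensorProduct.comm A B R with
        commutes' := fun b => by
          change (Algebra.TensorProduct.comm A B R) (b ⊗ₜ 1) = 1 ⊗ₜ b
          simp }
    exact Algebra.Smooth.of_equiv e
  have hπ : IsKoszulRegularIdeal (RingHom.ker π.toRingHom) := isKoszulRegularIdeal_ker_retraction π
  have h1 : KerK (π.toRingHom.comp u.toRingHom) := by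
    have := IsKoszulRegularIdeal.comap u.toRingHom hu hu' hπ
    rwa [RingHom.comap_ker] at this
  -- comparison with the polynomial algebra
  let e : R ⊗[A] P ≃ₐ[R] MvPolynomial (Fin n) R := MvPolynomial.algebraTensorAlgEquiv A R (σ := Fin n)
  have h2 : KerK (MvPolynomial.eval₂Hom φ.toRingHom (fun i => ψ (MvPolynomial.X i))) := by
    have h3 : (MvPolynomial.eval₂Hom φ.toRingHom (fun i => ψ (MvPolynomial.X i))) =
        (π.toRingHom.comp u.toRingHom).comp (e.symm.toRingEquiv : MvPolynomial (Fin n) R →+* R ⊗[A] P) := by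
      apply MvPolynomial.ringHom_ext
      · intro r
        change _ = π₀ (u (e.symm (MvPolynomial.C r)))
        have h4 : e.symm (MvPolynomial.C r) = r ⊗ₜ 1 := by
          rw [← MvPolynomial.algebraMap_eq, AlgEquiv.commutes]
          rfl
        rw [h4, MvPolynomial.coe_eval₂Hom, MvPolynomial.eval₂_C]
        change _ = π₀ (r ⊗ₜ ψ 1)
        rw [map_one]
        change _ = φ r * 1
        rw [mul_one]
        rfl
      · intro i
        change _ = π₀ (u (e.symm (MvPolynomial.X i)))
        have h4 : e.symm (MvPolynomial.X i) = 1 ⊗ₜ MvPolynomial.X i :=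
          MvPolynomial.algebraTensorAlgEquiv_symm_X A R i
        rw [h4, MvPolynomial.coe_eval₂Hom, MvPolynomial.eval₂_X]
        change _ = φ 1 * ψ (MvPolynomial.X i)
        rw [map_one, one_mul]
    rw [h3]
    exact KerK.comp_equiv h1 e.symm.toRingEquiv
  exact (kerK_mvPolynomial_iff φ.toRingHom hφ _).mp h2

end Groth.Agent.Dual.H366.SmoothLCI
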