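import Groth.Agent.Sga67.ExtAlg
import Mathlib.LinearAlgebra.Alternating.Basic

/-!
# The pairing `Λ^r W × Λ^m C → Λ^n F` attached to `C → F → W → 0`, `n = r + m`, `Λ^{m+1} C = 0`

* `desc`: alternating maps vanishing as soon as an argument lies in the kernel of a surjection descend.
* `pairing`: `(p x_1 ∧ … ∧ p x_r, c_1 ∧ … ∧ c_m) ↦ x_1 ∧ … ∧ x_r ∧ δ c_1 ∧ … ∧ δ c_m`.
-/

set_option autoImplicit false

open scoped TensorProduct
open Groth.Agent.Sga67.ExtAlg

namespace Groth.Agent.Dual.H366.WedgeAlg

variable {R : Type*} [CommRing R] {C F W Q : Type*} [AddCommGroup C] [Module R C] [AddCommGroup F] [Module R F]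
  [AddCommGroup W] [Module R W] [AddCommGroup Q] [Module R Q]

section Desc

variable {ι : Type*} [Fintype ι]

/-- An alternating map vanishing when one argument lies in `K` is invariant under translations by `K`. -/
theorem alt_eq_of_sub_mem (G : F [⋀^ι]→ₗ[R] Q) (K : Submodule R F)
    (hG : ∀ (v : ι → F) (j : ι), v j ∈ K → G v = 0) {x y : ι → F} (h : ∀ j, x j - y j ∈ K) : G x = G y := by
  classical
  have key : ∀ s : Finset ι, G (s.piecewise x y) = G y := by
    intro s
    induction s using Finset.induction_on with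
    | empty => rw [Finset.piecewise_empty]
    | insert a s ha ih =>
      rw [Finset.piecewise_insert, ← ih]
      have h1 : G (Function.update (s.piecewise x y) a (x a)) -
          G (Function.update (s.piecewise x y) a (y a)) = 0 := by
        rw [← AlternatingMap.map_update_sub]
        apply hG _ a
        rw [Function.update_self]
        exact h a
      have h2 : Function.update (s.piecewise x y) a (y a) = s.piecewise x y := by
        conv_rhs => rw [← Function.update_eq_self a (s.piecewise x y)]
        rw [Finset.piecewise_eq_of_notMem s x y ha]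
      rw [h2] at h1
      exact sub_eq_zero.mp h1
  have := key Finset.univ
  rwa [Finset.piecewise_univ] at this

variable (p : F →ₗ[R] W) (hp : Function.Surjective p) (G : F [⋀^ι]→ₗ[R] Q)
  (hG : ∀ (v : ι → F) (j : ι), p (v j) = 0 → G v = 0)

include hG in
theorem alt_congr {x y : ι → F} (h : ∀ j, p (x j) = p (y j)) : G x = G y :=
  alt_eq_of_sub_mem G (LinearMap.ker p) (fun v j hj => hG v j hj)
    (fun j => by rw [LinearMap.mem_ker, map_sub, h, sub_self])

/-- The descent of an alternating map along a surjection. -/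
noncomputable def desc : W [⋀^ι]→ₗ[R] Q where
  toFun w := G (fun j => Function.surjInv hp (w j))
  map_update_add' := by
    intro _ w j a b
    have h : ∀ z : W, G (fun k => Function.surjInv hp (Function.update w j z k)) =
        G (Function.update (fun k => Function.surjInv hp (w k)) j (Function.surjInv hp z)) := by
      intro z
      congr 1
      funext k
      by_cases hk : k = j
      · subst hk; simp
      · simp [hk]
    rw [h, h, h, ← AlternatingMap.map_update_add]
    apply alt_congr p G hG
    intro k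
    by_cases hk : k = j
    · subst hk; simp [Function.surjInv_eq]
    · simp [hk]
  map_update_smul' := by
    intro _ w j c a
    have h : ∀ z : W, G (fun k => Function.surjInv hp (Function.update w j z k)) =
        G (Function.update (fun k => Function.surjInv hp (w k)) j (Function.surjInv hp z)) := by
      intro z
      congr 1
      funext k
      by_cases hk : k = j
      · subst hk; simp
      · simp [hk]
    rw [h, h, ← AlternatingMap.map_update_smul]
    apply alt_congr p G hG
    intro k
    by_cases hk : k = j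
    · subst hk; simp [Function.surjInv_eq]
    · simp [hk]
  map_eq_zero_of_eq' := by
    intro w i j h hij
    exact G.map_eq_zero_of_eq _ (by simp only [h]) hij

theorem desc_apply (v : ι → F) : desc p hp G hG (fun j => p (v j)) = G v := by
  apply alt_congr p G hG
  intro j
  exact Function.surjInv_eq hp _

end Desc

section Pairing

variable {r m n : ℕ} (h : r + m = n) (δ : C →ₗ[R] F) (p : F →ₗ[R] W)

/-- `(x, y) ↦ x ∧ δ y`. -/
noncomputable def pre : ⋀[R]^r F →ₗ[R] ⋀[R]^m C →ₗ[R] ⋀[R]^n F :=
  (wedge h).compl₂ (exteriorPower.map m δ)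

theorem pre_apply (x : ⋀[R]^r F) (y : ⋀[R]^m C) : pre h δ x y = wedge h x (exteriorPower.map m δ y) := rfl

theorem pre_ιMulti (x : Fin r → F) (y : Fin m → C) :
    pre h δ (exteriorPower.ιMulti R r x) (exteriorPower.ιMulti R m y) =
      exteriorPower.ιMulti R n (Fin.append x (δ ∘ y) ∘ Fin.cast h.symm) := by
  rw [pre_apply, exteriorPower.map_apply_ιMulti, wedge_ιMulti]

variable [Subsingleton (⋀[R]^(m + 1) C)]

theorem ι_mul_eq_zero (c : C) (y : ⋀[R]^m C) : ExteriorAlgebra.ι R c * (y : ExteriorAlgebra R C) = 0 := by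
  have h1 : ExteriorAlgebra.ι R c ∈ ⋀[R]^1 C := by
    rw [ExteriorAlgebra.exteriorPower, pow_one]
    exact LinearMap.mem_range_self _ _
  have h2 := mul_mem_ext (R := R) (M := C) (show 1 + m = m + 1 by omega) h1 y.2
  exact congrArg Subtype.val (Subsingleton.elim (⟨_, h2⟩ : ⋀[R]^(m + 1) C) 0)

/-- `pre` vanishes if the last vector is `δ c`. -/
theorem pre_eq_zero_of_last {r' : ℕ} (h : (r' + 1) + m = n) (v : Fin (r' + 1) → F) (c : C)
    (hv : v (Fin.last r') = δ c) (y : ⋀[R]^m C) :
    pre h δ (exteriorPower.ιMulti R (r' + 1) v) y = 0 := by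
  apply Subtype.ext
  rw [pre_apply, coe_wedge, exteriorPower.ιMulti_apply_coe, ιMulti_last, mul_assoc, hv, coe_map]
  have h1 : ExteriorAlgebra.ι R (δ c) = ExteriorAlgebra.map δ (ExteriorAlgebra.ι R c) :=
    (ExteriorAlgebra.map_apply_ι δ c).symm
  rw [h1, ← map_mul, ι_mul_eq_zero, map_zero, mul_zero]
  rfl

theorem pre_eq_zero (v : Fin r → F) (j : Fin r) (c : C) (hv : v j = δ c) :
    pre h δ (exteriorPower.ιMulti R r v) = 0 := by
  obtain ⟨r', rfl⟩ : ∃ r', r = r' + 1 := ⟨r - 1, by have := j.2; omega⟩
  by_cases hj : j = Fin.last r'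
  · subst hj
    refine LinearMap.ext fun y => ?_
    exact pre_eq_zero_of_last δ h v c hv y
  · have h1 := (exteriorPower.ιMulti R (r' + 1)).map_swap v hj
    have h2 : pre h δ (exteriorPower.ιMulti R (r' + 1) (v ∘ Equiv.swap j (Fin.last r'))) = 0 := by
      refine LinearMap.ext fun y => ?_
      refine pre_eq_zero_of_last δ h _ c ?_ y
      rw [Function.comp_apply, Equiv.swap_apply_right, hv]
    rw [h1, map_neg, neg_eq_zero] at h2
    exact h2

/-- `pre` as an alternating map. -/
noncomputable def preAlt : F [⋀^Fin r]→ₗ[R] (⋀[R]^m C →ₗ[R] ⋀[R]^n F) :=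
  (pre h δ).compAlternatingMap (exteriorPower.ιMulti R r)

omit [Subsingleton (⋀[R]^(m + 1) C)] in
theorem preAlt_apply (v : Fin r → F) : preAlt h δ v = pre h δ (exteriorPower.ιMulti R r v) := rfl

theorem preAlt_eq_zero (hz : ∀ x : F, p x = 0 → ∃ c : C, δ c = x) (v : Fin r → F) (j : Fin r)
    (hv : p (v j) = 0) : preAlt h δ v = 0 := by
  obtain ⟨c, hc⟩ := hz _ hv
  exact pre_eq_zero h δ v j c hc.symm

variable (hp : Function.Surjective p) (hz : ∀ x : F, p x = 0 → ∃ c : C, δ c = x)

/-- The pairing `Λ^r W × Λ^m C → Λ^n F`. -/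
noncomputable def pairing : ⋀[R]^r W →ₗ[R] (⋀[R]^m C →ₗ[R] ⋀[R]^n F) :=
  exteriorPower.alternatingMapLinearEquiv (R := R) (M := W) (N := ⋀[R]^m C →ₗ[R] ⋀[R]^n F) (n := r)
    (desc (Q := ⋀[R]^m C →ₗ[R] ⋀[R]^n F) p hp (preAlt h δ) (preAlt_eq_zero h δ p hz))

theorem pairing_ιMulti' (x : Fin r → F) :
    pairing h δ p hp hz (exteriorPower.ιMulti R r (fun j => p (x j))) =
      pre h δ (exteriorPower.ιMulti R r x) := by
  rw [pairing, exteriorPower.alternatingMapLinearEquiv_apply_ιMulti, desc_apply]
  rfl

theorem pairing_map (x : ⋀[R]^r F) :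
    pairing h δ p hp hz (exteriorPower.map r p x) = pre h δ x := by
  have : pairing h δ p hp hz ∘ₗ exteriorPower.map r p = pre h δ := by
    refine exteriorPower.linearMap_ext (R := R) (M := F) (N := ⋀[R]^m C →ₗ[R] ⋀[R]^n F) (n := r) ?_
    ext x : 1
    simp only [LinearMap.compAlternatingMap_apply, LinearMap.comp_apply, exteriorPower.map_apply_ιMulti]
    exact pairing_ιMulti' h δ p hp hz x
  exact LinearMap.congr_fun this x

theorem pairing_ιMulti (x : Fin r → F) (y : Fin m → C) :
    pairing h δ p hp hz (exteriorPower.ιMulti R r (fun j => p (x j))) (exteriorPower.ιMulti R m y) =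
      exteriorPower.ιMulti R n (Fin.append x (δ ∘ y) ∘ Fin.cast h.symm) := by
  rw [pairing_ιMulti', pre_ιMulti]

end Pairing

end Groth.Agent.Dual.H366.WedgeAlg
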