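import Groth.Agent.Dual.H366.WedgeAlg
import Mathlib.LinearAlgebra.Determinant

/-!
# The image of the wedge pairing in a basis

If `e_1 ∧ … ∧ e_n` is in the image of `Λ^r W ⊗ Λ^m C → Λ^n F`, then for every ring homomorphism to a nontrivial ring
one of the determinants `det (x, δ c)` is non-zero.
-/

set_option autoImplicit false

open scoped TensorProduct

namespace Groth.Agent.Dual.H366.WedgeDet

open WedgeAlg

variable {R : Type*} [CommRing R] {C F W : Type*} [AddCommGroup C] [Module R C] [AddCommGroup F] [Module R F]
  [AddCommGroup W] [Module R W] {r m n : ℕ} (h : r + m = n) (δ : C →ₗ[R] F) (p : F →ₗ[R] W)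
  [Subsingleton (⋀[R]^(m + 1) C)] (hp : Function.Surjective p) (hz : ∀ x : F, p x = 0 → ∃ c : C, δ c = x)
  (c : Module.Basis (Fin m) R C) (e : Module.Basis (Fin n) R F)

/-- The determinant as a linear form on the top exterior power. -/
noncomputable def detL : ⋀[R]^n F →ₗ[R] R := exteriorPower.alternatingMapLinearEquiv e.det

theorem detL_ιMulti (y : Fin n → F) : detL e (exteriorPower.ιMulti R n y) = e.det y := by
  rw [detL, exteriorPower.alternatingMapLinearEquiv_apply_ιMulti]

/-- The ideal generated by the determinants. -/
def detIdeal : Ideal R :=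
  Ideal.span (Set.range fun x : Fin r → F => e.det (Fin.append x (δ ∘ c) ∘ Fin.cast h.symm))

theorem detL_pairing_mem (x : Fin r → F) (y : Fin m → C) :
    detL e (pairing h δ p hp hz (exteriorPower.ιMulti R r (fun j => p (x j)))
      (exteriorPower.ιMulti R m y)) ∈ detIdeal h δ c e := by
  let g : C [⋀^Fin m]→ₗ[R] R := (detL e ∘ₗ
    pairing h δ p hp hz (exteriorPower.ιMulti R r (fun j => p (x j)))).compAlternatingMap
      (exteriorPower.ιMulti R m)
  have h1 : detL e (pairing h δ p hp hz (exteriorPower.ιMulti R r (fun j => p (x j)))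
      (exteriorPower.ιMulti R m y)) = g y := rfl
  have h2 : g c = e.det (Fin.append x (δ ∘ c) ∘ Fin.cast h.symm) := by
    change detL e (pairing h δ p hp hz (exteriorPower.ιMulti R r (fun j => p (x j)))
      (exteriorPower.ιMulti R m c)) = _
    rw [pairing_ιMulti, detL_ιMulti]
  rw [h1, AlternatingMap.eq_smul_basis_det c g, AlternatingMap.smul_apply, smul_eq_mul, h2]
  exact Ideal.mul_mem_right _ _ (Ideal.subset_span ⟨x, rfl⟩)

theorem detL_lift_mem (t : (⋀[R]^r W) ⊗[R] (⋀[R]^m C)) :
    detL e (TensorProduct.lift (pairing h δ p hp hz) t) ∈ detIdeal h δ c e := by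
  induction t using TensorProduct.induction_on with
  | zero => rw [map_zero, map_zero]; exact Submodule.zero_mem _
  | add a b ha hb => rw [map_add, map_add]; exact Submodule.add_mem _ ha hb
  | tmul a b =>
    rw [TensorProduct.lift.tmul]
    have ha : a ∈ Submodule.span R (Set.range (exteriorPower.ιMulti R r (M := W))) := by
      rw [exteriorPower.ιMulti_span]; trivial
    induction ha using Submodule.span_induction with
    | zero => rw [map_zero, LinearMap.zero_apply, map_zero]; exact Submodule.zero_mem _
    | add a a' _ _ ha ha' =>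
      rw [map_add, LinearMap.add_apply, map_add]; exact Submodule.add_mem _ ha ha'
    | smul s a _ ha =>
      rw [map_smul, LinearMap.smul_apply, map_smul]; exact Submodule.smul_mem _ _ ha
    | mem a ha =>
      obtain ⟨w, rfl⟩ := ha
      have hb : b ∈ Submodule.span R (Set.range (exteriorPower.ιMulti R m (M := C))) := by
        rw [exteriorPower.ιMulti_span]; trivial
      induction hb using Submodule.span_induction with
      | zero => rw [map_zero, map_zero]; exact Submodule.zero_mem _
      | add a a' _ _ ha ha' =>
        rw [map_add, map_add]; exact Submodule.add_mem _ ha ha'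
      | smul s a _ ha =>
        rw [map_smul, map_smul]; exact Submodule.smul_mem _ _ ha
      | mem b hb =>
        obtain ⟨y, rfl⟩ := hb
        choose x hx using fun j => hp (w j)
        obtain rfl : w = fun j => p (x j) := funext fun j => (hx j).symm
        exact detL_pairing_mem h δ p hp hz c e x y

/-- If the generator is in the image, then some determinant is non-zero. -/
theorem exists_det_ne_zero (t : (⋀[R]^r W) ⊗[R] (⋀[R]^m C))
    (ht : TensorProduct.lift (pairing h δ p hp hz) t = exteriorPower.ιMulti R n e)
    {K : Type*} [CommRing K] [Nontrivial K] (φ : R →+* K) :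
    ∃ x : Fin r → F, φ (e.det (Fin.append x (δ ∘ c) ∘ Fin.cast h.symm)) ≠ 0 := by
  by_contra hc
  push Not at hc
  have h1 := detL_lift_mem h δ p hp hz c e t
  rw [ht, detL_ιMulti, e.det_self] at h1
  have h2 : detIdeal h δ c e ≤ RingHom.ker φ := by
    rw [detIdeal, Ideal.span_le]
    rintro _ ⟨x, rfl⟩
    exact hc x
  have h3 : φ 1 = 0 := h2 h1
  rw [map_one] at h3
  exact one_ne_zero h3

end Groth.Agent.Dual.H366.WedgeDet
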