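import Groth.Agent.Dual.H366.WedgeSheaf
import Groth.Agent.Dual.H366.WedgeDet
import Groth.Agent.Dual.H328.DetCrit
import Groth.Agent.Krr.H487.ExtPull

/-!
# Where is the wedge morphism an isomorphism?
-/

set_option autoImplicit false

universe u

open CategoryTheory CategoryTheory.Limits AlgebraicGeometry Opposite TopologicalSpace
open scoped TensorProduct
open Groth.Agent.Sga67.Sec Groth.Agent.Sga67.ExtSheaf Groth.Agent.Sga67.LocBasis

namespace Groth.Agent.Dual.H366.WedgeIso

open WedgeSheaf

variable {X : Scheme.{u}}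

/-- Evaluation of functions at a point. -/
noncomputable def evK {U : X.Opens} {x : X} (hx : x ∈ U) : Γ(X, U) →+* X.residueField x :=
  (X.evaluation U x hx).hom

theorem evK_resO {U V : X.Opens} (h : V ≤ U) {x : X} (hx : x ∈ V) (a : Γ(X, U)) :
    evK hx (resO X h a) = evK (h hx) a := by
  change X.residue x (X.presheaf.germ V x hx (X.presheaf.map (homOfLE h).op a)) =
    X.residue x (X.presheaf.germ U x (h hx) a)
  rw [TopCat.Presheaf.germ_res_apply]

theorem mem_basicOpen_of_evK_ne_zero {U : X.Opens} {x : X} (hx : x ∈ U) (a : Γ(X, U))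
    (h : evK hx a ≠ 0) : x ∈ X.basicOpen a :=
  (X.evaluation_ne_zero_iff_mem_basicOpen x hx a).mp h

theorem subsingleton_ext {R C : Type*} [CommRing R] [AddCommGroup C] [Module R C] {m : ℕ}
    (c : Module.Basis (Fin m) R C) : Subsingleton (⋀[R]^(m + 1) C) := by
  have h1 : exteriorPower.ιMulti R (m + 1) (M := C) = 0 := by
    refine Module.Basis.ext_alternating c fun v hv => ?_
    exact absurd (Fintype.card_le_of_injective v hv) (by simp)
  have h2 : (⊤ : Submodule R (⋀[R]^(m + 1) C)) = ⊥ := by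
    rw [← exteriorPower.ιMulti_span, Submodule.span_eq_bot]
    rintro _ ⟨v, rfl⟩
    rw [h1]
    rfl
  exact (Submodule.subsingleton_iff R).mp (subsingleton_of_bot_eq_top h2.symm)

/-- Coordinates are compatible with restriction. -/
theorem repr_res {M : X.Modules} {U : X.Opens} {κ : Type*} [Fintype κ] {e : κ → Sec M U}
    (he : IsLocBasis e) {V V' : X.Opens} (h : V ≤ U) (h' : V' ≤ V) (s : Sec M V) (k : κ) :
    (he.basis (h'.trans h)).repr (res M h' s) k = resO X h' ((he.basis h).repr s k) := by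
  obtain ⟨a, rfl⟩ := (he V h).2 s
  have h1 : ∀ {V : X.Opens} (h : V ≤ U) (a : κ → Γ(X, V)), (he.basis h).repr (comb e h a) k = a k := by
    intro V h a
    have h2 : comb e h a = ∑ i, a i • he.basis h i := by
      rw [comb_apply]
      exact Finset.sum_congr rfl fun i _ => by rw [he.basis_apply]
    rw [h2, Module.Basis.repr_sum_self]
  rw [res_comb, h1, h1]

theorem det_res {M : X.Modules} {U : X.Opens} {n : ℕ} {e : Fin n → Sec M U}
    (he : IsLocBasis e) {V V' : X.Opens} (h : V ≤ U) (h' : V' ≤ V) (v : Fin n → Sec M V) :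
    (he.basis (h'.trans h)).det (fun j => res M h' (v j)) = resO X h' ((he.basis h).det v) := by
  rw [Module.Basis.det_apply, Module.Basis.det_apply, RingHom.map_det]
  congr 1
  ext i j
  rw [RingHom.mapMatrix_apply, Matrix.map_apply, Module.Basis.toMatrix_apply,
    Module.Basis.toMatrix_apply, repr_res he h h']

theorem bijective_comb {M : X.Modules} {U : X.Opens} {κ : Type*} [Fintype κ] (b : κ → Sec M U) {V : X.Opens}
    (h : V ≤ U) (hli : LinearIndependent Γ(X, V) (fun i => res M h (b i)))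
    (hsp : ⊤ ≤ Submodule.span Γ(X, V) (Set.range (fun i => res M h (b i)))) :
    Function.Bijective (comb b h) := by
  let β := Module.Basis.mk hli hsp
  have : (comb b h : (κ → Γ(X, V)) → Sec M V) = β.equivFun.symm := by
    funext a
    rw [comb_apply, Module.Basis.equivFun_symm_apply]
    simp only [β, Module.Basis.mk_apply]
  rw [this]
  exact β.equivFun.symm.bijective

theorem orderEmb_eq {n : ℕ} (f : Fin n ↪o Fin n) (i : Fin n) : f i = i := by
  have h1 : (RelIso.ofSurjective f (Finite.surjective_of_injective f.injective) : Fin n ≃o Fin n) =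
      OrderIso.refl _ := Subsingleton.elim _ _
  exact DFunLike.congr_fun h1 i

/-- The unique index of the top exterior power. -/
noncomputable def topEquiv (n : ℕ) : Fin 1 ≃ Set.powersetCard (Fin n) n :=
  letI : Unique (Fin n ↪o Fin n) :=
    { default := RelEmbedding.refl _, uniq := fun f => by ext i; rw [orderEmb_eq]; rfl }
  (Equiv.ofUnique (Fin 1) (Fin n ↪o Fin n)).trans Set.powersetCard.ofFinEmbEquiv

/-- The top exterior power has a one-element local basis. -/
theorem isLocBasis_top {i : ℕ} {E L : X.Modules} (φ : Phi i E L) (hφ : PhiComp φ) {U : X.affineOpens}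
    {b : Fin i → Sec E U.1} (hb : IsLocBasis b) :
    IsLocBasis (M := L) (U := U.1) (fun _ : Fin 1 => (φ U).symm (exteriorPower.ιMulti _ i b)) := by
  have h1 := (isLocBasis_extPow φ hφ hb).reindex (topEquiv i)
  have h2 : (fun k : Fin 1 => (φ U).symm (exteriorPower.ιMulti_family Γ(X, U.1) i b (topEquiv i k))) =
      (fun _ : Fin 1 => (φ U).symm (exteriorPower.ιMulti _ i b)) := by
    funext k
    congr 1
    unfold exteriorPower.ιMulti_family
    congr 1
    funext j
    rw [Function.comp_apply, orderEmb_eq]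
  exact h2 ▸ h1

section

variable {ι : Type*} {B : ι → X.affineOpens}
variable {C F W LW LC D : X.Modules} {δ : C ⟶ F} {p : F ⟶ W} {r m n : ℕ}

/-- Bases over the members of a family of affine opens on which `C → F → W → 0` is exact. -/
structure Dat (B : ι → X.affineOpens) (m n : ℕ) {C F W : X.Modules} (δ : C ⟶ F) (p : F ⟶ W) where
  surj : ∀ i, Function.Surjective (appS p (B i).1)
  comp : ∀ i (x : Sec C (B i).1), appS p (B i).1 (appS δ (B i).1 x) = 0
  ex : ∀ i (x : Sec F (B i).1), appS p (B i).1 x = 0 → ∃ c : Sec C (B i).1, appS δ (B i).1 c = x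
  c : ∀ i, Fin m → Sec C (B i).1
  hc : ∀ i, IsLocBasis (c i)
  e : ∀ i, Fin n → Sec F (B i).1
  he : ∀ i, IsLocBasis (e i)

theorem Dat.isWedgeDatum (H : Dat B m n δ p) : IsWedgeDatum B m δ p where
  surj := H.surj
  ex := H.ex
  zero i := subsingleton_ext ((H.hc i).basis le_rfl)

/-- The family `(x, δ c)`. -/
noncomputable def fam (H : Dat B m n δ p) (h : r + m = n) (i : ι) (x : Fin r → Sec F (B i).1) :
    Fin n → Sec F (B i).1 := Fin.append x (appS δ (B i).1 ∘ H.c i) ∘ Fin.cast h.symm

/-- The complementary determinant. -/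
noncomputable def cdet (H : Dat B m n δ p) (h : r + m = n) (i : ι) (x : Fin r → Sec F (B i).1) :
    Γ(X, (B i).1) := ((H.he i).basis le_rfl).det (fam H h i x)

theorem res_fam (H : Dat B m n δ p) (h : r + m = n) (i : ι) (x : Fin r → Sec F (B i).1) {V : X.Opens}
    (hV : V ≤ (B i).1) : (fun j => res F hV (fam H h i x j)) =
      Fin.append (fun j => res F hV (x j)) (appS δ V ∘ ((H.hc i).basis hV)) ∘ Fin.cast h.symm := by
  funext j
  simp only [fam, Function.comp_apply]
  induction (Fin.cast h.symm j) using Fin.addCases with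
  | left i => simp only [Fin.append_left]
  | right i => simp only [Fin.append_right, Function.comp_apply, IsLocBasis.basis_apply]; exact (appS_res δ hV _).symm

theorem isUnit_det (H : Dat B m n δ p) (h : r + m = n) (i : ι) (x : Fin r → Sec F (B i).1)
    {V : X.Opens} (hV : V ≤ (B i).1) (hu : IsUnit (resO X hV (cdet H h i x))) :
    IsUnit (((H.he i).basis hV).det
      (Fin.append (fun j => res F hV (x j)) (appS δ V ∘ ((H.hc i).basis hV)) ∘ Fin.cast h.symm)) := by
  rw [← res_fam H h i x hV]
  rw [cdet, ← det_res (H.he i) le_rfl hV] at hu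
  exact hu

theorem bases (H : Dat B m n δ p) (h : r + m = n) (i : ι) (x : Fin r → Sec F (B i).1) (l : ι)
    (hl : (B l).1 ≤ (B i).1) (hu : IsUnit (resO X hl (cdet H h i x))) :
    Function.Bijective (comb (fun j => appS p (B i).1 (x j)) hl) ∧
      Function.Bijective (comb (fam H h i x) hl) := by
  have h1 := isUnit_det H h i x hl hu
  have hex : LinearMap.ker (appS p (B l).1) = LinearMap.range (appS δ (B l).1) := by
    ext y
    constructor
    · intro hy
      exact H.ex l y hy
    · rintro ⟨z, rfl⟩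
      exact H.comp l z
  obtain ⟨⟨h2, h3⟩, h4, h5⟩ := H328.DetCrit.exists_basis_of_isUnit ((H.hc i).basis hl)
    ((H.he i).basis hl) (appS δ (B l).1) (appS p (B l).1) (H.surj l) hex h
    (fun j => res F hl (x j)) h1
  constructor
  · have e1 : (fun j => res W hl (appS p (B i).1 (x j))) =
        (appS p (B l).1) ∘ (fun j => res F hl (x j)) := funext fun j => (appS_res p hl (x j)).symm
    apply bijective_comb
    · rw [e1]; exact h2
    · rw [e1]; exact h3
  · have e2 := res_fam H h i x hl
    apply bijective_comb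
    · rw [e2]
      exact h4.comp _ (Fin.cast_injective _)
    · rw [e2, Set.range_comp, (finCongr h.symm).surjective.range_eq (f := Fin.cast h.symm),
        Set.image_univ]
      exact h5

theorem comb_res {M : X.Modules} {U : X.Opens} {κ : Type*} [Fintype κ] (b : κ → Sec M U) {V V' : X.Opens}
    (h : V ≤ U) (h' : V' ≤ V) : comb (fun i => res M h (b i)) h' = comb b (h'.trans h) := by
  ext a
  simp [comb_apply]

theorem isLocBasis_fam (hB : Opens.IsBasis (Set.range fun i => (B i).1)) (H : Dat B m n δ p)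
    (h : r + m = n) (i : ι) (x : Fin r → Sec F (B i).1) (k : ι)
    (hk : (B k).1 ≤ (B i).1) (hu : IsUnit (resO X hk (cdet H h i x))) :
    IsLocBasis (fun j => res W hk (appS p (B i).1 (x j))) ∧
      IsLocBasis (fun j => res F hk (fam H h i x j)) := by
  have key : ∀ (y : X) (V : X.Opens), V ≤ (B k).1 → y ∈ V → ∃ (l : ι) (hl : (B l).1 ≤ (B k).1),
      (B l).1 ≤ V ∧ y ∈ (B l).1 ∧ IsUnit (resO X (hl.trans hk) (cdet H h i x)) := by
    intro y V hV hy
    obtain ⟨_, ⟨l, rfl⟩, hyl, hl⟩ := Opens.isBasis_iff_nbhd.mp hB hy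
    refine ⟨l, hl.trans hV, hl, hyl, ?_⟩
    rw [← resO_resO hk (hl.trans hV)]
    exact hu.map _
  constructor
  · refine isLocBasis_of_locally _ fun y V hV hy => ?_
    obtain ⟨l, hl, hlV, hyl, hu'⟩ := key y V hV hy
    refine ⟨(B l).1, hl, hlV, hyl, ?_⟩
    rw [comb_res]
    exact (bases H h i x l (hl.trans hk) hu').1
  · refine isLocBasis_of_locally _ fun y V hV hy => ?_
    obtain ⟨l, hl, hlV, hyl, hu'⟩ := key y V hV hy
    refine ⟨(B l).1, hl, hlV, hyl, ?_⟩
    rw [comb_res]
    exact (bases H h i x l (hl.trans hk) hu').2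

/-- **The wedge morphism is an isomorphism where a complementary determinant is invertible.** -/
theorem bijective_wdg (hB : Opens.IsBasis (Set.range fun i => (B i).1)) (H : Dat B m n δ p)
    (h : r + m = n) (φW : Phi r W LW) (hφW : PhiComp φW)
    (φC : Phi m C LC) (hφC : PhiComp φC) (ψ : Phi n F D) (hψ : PhiComp ψ)
    (g : CohB1.tensorMod LW LC ⟶ D)
    (hg : ∀ (i : ι) (t : Sec LW (B i).1 ⊗[Γ(X, (B i).1)] Sec LC (B i).1),
      appS g (B i).1 (tau LW LC (B i).1 t) = secMap H.isWedgeDatum h φW φC ψ i t)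
    (i : ι) (y : X) (hy : y ∈ (B i).1) (x : Fin r → Sec F (B i).1)
    (hx : evK hy (cdet H h i x) ≠ 0) :
    ∃ V : X.Opens, V ≤ (B i).1 ∧ y ∈ V ∧ ∀ V' : X.Opens, V' ≤ V → Function.Bijective (appS g V') := by
  have h1 := mem_basicOpen_of_evK_ne_zero hy _ hx
  obtain ⟨_, ⟨k, rfl⟩, hyk, hk⟩ := Opens.isBasis_iff_nbhd.mp hB h1
  have hki : (B k).1 ≤ (B i).1 := hk.trans (X.basicOpen_le _)
  have hu : IsUnit (resO X hki (cdet H h i x)) := by
    rw [← resO_resO (X.basicOpen_le _) hk]
    exact (RingedSpace.isUnit_res_basicOpen _ (cdet H h i x)).map _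
  obtain ⟨hW, hF⟩ := isLocBasis_fam hB H h i x k hki hu
  have hC := (H.hc i).restrict hki
  refine ⟨(B k).1, hki, hyk, fun V' hV' => ?_⟩
  have b1 := isLocBasis_top φW hφW (U := B k) hW
  have b2 := isLocBasis_top φC hφC (U := B k) hC
  have b3 := isLocBasis_top ψ hψ (U := B k) hF
  have b4 := (isLocBasis_tensor b1 b2).reindex (Equiv.prodUnique (Fin 1) (Fin 1)).symm
  refine Krr.H487.ExtPull.bijective_of_locBasis g b4 b3 (fun _ => ?_) hV'
  change appS g (B k).1 (tau LW LC (B k).1 _) = _
  rw [hg]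
  have e1 : (fun j => res W hki (appS p (B i).1 (x j))) = fun j => appS p (B k).1 (res F hki (x j)) :=
    funext fun j => (appS_res p hki (x j)).symm
  rw [e1, secMap_ιMulti]
  congr 2
  rw [res_fam]
  congr 2
  funext j
  simp only [Function.comp_apply, IsLocBasis.basis_apply]

/-- **Converse**: if the wedge morphism is locally surjective at a point, then a complementary determinant is
non-zero there. -/
theorem exists_of_surjective (hB : Opens.IsBasis (Set.range fun i => (B i).1)) (H : Dat B m n δ p)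
    (h : r + m = n) (φW : Phi r W LW) 
    (φC : Phi m C LC) (ψ : Phi n F D) (hψ : PhiComp ψ)
    (g : CohB1.tensorMod LW LC ⟶ D)
    (hg : ∀ (i : ι) (t : Sec LW (B i).1 ⊗[Γ(X, (B i).1)] Sec LC (B i).1),
      appS g (B i).1 (tau LW LC (B i).1 t) = secMap H.isWedgeDatum h φW φC ψ i t)
    (y : X) (hs : ∀ (U : X.Opens) (_ : y ∈ U) (s : Sec D U), ∃ (V : X.Opens) (hV : V ≤ U), y ∈ V ∧
      ∃ t, appS g V t = res D hV s) :
    ∃ (k : ι) (hy : y ∈ (B k).1) (x : Fin r → Sec F (B k).1), evK hy (cdet H h k x) ≠ 0 := by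
  obtain ⟨_, ⟨i, rfl⟩, hyi, -⟩ := Opens.isBasis_iff_nbhd.mp hB (show y ∈ (⊤ : X.Opens) from trivial)
  obtain ⟨V, hV, hyV, t, ht⟩ := hs (B i).1 hyi ((ψ (B i)).symm (exteriorPower.ιMulti _ n (H.e i)))
  obtain ⟨V₁, hV₁, hyV₁, t₁, ht₁⟩ := tau_locsurj LW LC t y hyV
  obtain ⟨_, ⟨k, rfl⟩, hyk, hk⟩ := Opens.isBasis_iff_nbhd.mp hB hyV₁
  have hki : (B k).1 ≤ (B i).1 := (hk.trans hV₁).trans hV
  have e1 : secMap H.isWedgeDatum h φW φC ψ k (tres LW LC hk t₁) =
      (ψ (B k)).symm (exteriorPower.ιMulti _ n (fun j => res F hki (H.e i j))) := by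
    rw [← hg, tau_tres, ht₁, res_res, appS_res, ht, res_res]
    exact hψ (B i) (B k) hki (H.e i)
  have e2 : TensorProduct.lift (secPairing H.isWedgeDatum h k)
      (TensorProduct.map (φW (B k)).toLinearMap (φC (B k)).toLinearMap (tres LW LC hk t₁)) =
      exteriorPower.ιMulti _ n (fun j => res F hki (H.e i j)) := by
    rw [← secMap_apply H.isWedgeDatum h φW φC ψ k, e1, LinearEquiv.apply_symm_apply]
  have hz := H.isWedgeDatum.zero k
  let e' := (H.he i).basis hki
  let c' := (H.hc k).basis (le_refl (B k).1)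
  have he' : (fun j => res F hki (H.e i j)) = e' := funext fun j => ((H.he i).basis_apply hki j).symm
  have hc' : H.c k = c' := funext fun j => by
    change _ = (H.hc k).basis le_rfl j
    rw [IsLocBasis.basis_apply, res_self]
  obtain ⟨x, hx⟩ := WedgeDet.exists_det_ne_zero h (appS δ (B k).1) (appS p (B k).1) (H.surj k) (H.ex k)
    c' e' (TensorProduct.map (φW (B k)).toLinearMap (φC (B k)).toLinearMap (tres LW LC hk t₁))
    (e2.trans (by rw [he'])) (evK hyk)
  refine ⟨k, hyk, x, fun h0 => hx ?_⟩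
  have h1 := AlternatingMap.eq_smul_basis_det ((H.he k).basis le_rfl) e'.det
  rw [h1, AlternatingMap.smul_apply, smul_eq_mul, map_mul]
  have h2 : ((H.he k).basis le_rfl).det (Fin.append x (appS δ (B k).1 ∘ c') ∘ Fin.cast h.symm) =
      cdet H h k x := by rw [cdet, fam, hc']
  rw [h2, h0, mul_zero]

end

end Groth.Agent.Dual.H366.WedgeIso
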