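import Groth.Agent.Sga67.ExtSheaf
import Groth.Agent.Dual.H366.WedgeAlg

/-!
# The wedge morphism `Λ^r W ⊗ Λ^m C ⟶ Λ^n F` attached to `C → F → W → 0`

For `δ : C ⟶ F`, `p : F ⟶ W` exact on affine opens with `Λ^{m+1} C(U) = 0`, and `n = r + m`, we construct
`tensorMod (Λ^r W) (Λ^m C) ⟶ Λ^n F`,
`(p x_1 ∧ … ∧ p x_r) ⊗ (c_1 ∧ … ∧ c_m) ↦ x_1 ∧ … ∧ x_r ∧ δ c_1 ∧ … ∧ δ c_m`.
-/

set_option autoImplicit false

universe u

open CategoryTheory CategoryTheory.Limits AlgebraicGeometry Opposite TopologicalSpace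
open scoped TensorProduct
open Groth.Agent.Sga67.Sec Groth.Agent.Sga67.ExtSheaf

namespace Groth.Agent.Dual.H366.WedgeSheaf

variable {X : Scheme.{u}}

/-- `C → F → W → 0` is exact on sections over the members of a family of affine opens and `Λ^{m+1} C`
vanishes there. -/
structure IsWedgeDatum {ι : Type*} (B : ι → X.affineOpens) (m : ℕ) {C F W : X.Modules} (δ : C ⟶ F)
    (p : F ⟶ W) : Prop where
  surj : ∀ i, Function.Surjective (appS p (B i).1)
  ex : ∀ i (x : Sec F (B i).1), appS p (B i).1 x = 0 → ∃ c : Sec C (B i).1, appS δ (B i).1 c = x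
  zero : ∀ i, Subsingleton (⋀[Γ(X, (B i).1)]^(m + 1) (Sec C (B i).1))

variable {ι : Type*} {B : ι → X.affineOpens}
variable {C F W LW LC D : X.Modules} {δ : C ⟶ F} {p : F ⟶ W} {r m n : ℕ}

/-- The pairing on sections over an affine open. -/
noncomputable def secPairing (H : IsWedgeDatum B m δ p) (h : r + m = n) (i : ι) :
    ⋀[Γ(X, (B i).1)]^r (Sec W (B i).1) →ₗ[Γ(X, (B i).1)] (⋀[Γ(X, (B i).1)]^m (Sec C (B i).1)
      →ₗ[Γ(X, (B i).1)] ⋀[Γ(X, (B i).1)]^n (Sec F (B i).1)) :=
  haveI := H.zero i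
  WedgeAlg.pairing h (appS δ (B i).1) (appS p (B i).1) (H.surj i) (H.ex i)

theorem secPairing_ιMulti (H : IsWedgeDatum B m δ p) (h : r + m = n) (i : ι)
    (x : Fin r → Sec F (B i).1) (y : Fin m → Sec C (B i).1) :
    secPairing H h i (exteriorPower.ιMulti _ r (fun j => appS p (B i).1 (x j)))
        (exteriorPower.ιMulti _ m y) =
      exteriorPower.ιMulti _ n (Fin.append x (appS δ (B i).1 ∘ y) ∘ Fin.cast h.symm) := by
  have := H.zero i
  exact WedgeAlg.pairing_ιMulti h (appS δ (B i).1) (appS p (B i).1) (H.surj i) (H.ex i) x y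

/-- The wedge morphism on sections over an affine open. -/
noncomputable def secMap (H : IsWedgeDatum B m δ p) (h : r + m = n) (φW : Phi r W LW) (φC : Phi m C LC)
    (ψ : Phi n F D) (i : ι) :
    (Sec LW (B i).1 ⊗[Γ(X, (B i).1)] Sec LC (B i).1) →ₗ[Γ(X, (B i).1)] Sec D (B i).1 :=
  (ψ (B i)).symm.toLinearMap ∘ₗ (TensorProduct.lift (secPairing H h i)) ∘ₗ
    (TensorProduct.map (φW (B i)).toLinearMap (φC (B i)).toLinearMap)

theorem secMap_apply (H : IsWedgeDatum B m δ p) (h : r + m = n) (φW : Phi r W LW) (φC : Phi m C LC)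
    (ψ : Phi n F D) (i : ι) (t : Sec LW (B i).1 ⊗[Γ(X, (B i).1)] Sec LC (B i).1) :
    ψ (B i) (secMap H h φW φC ψ i t) = TensorProduct.lift (secPairing H h i)
      (TensorProduct.map (φW (B i)).toLinearMap (φC (B i)).toLinearMap t) := by
  change ψ (B i) ((ψ (B i)).symm _) = _
  rw [LinearEquiv.apply_symm_apply]
  rfl

theorem secMap_tmul (H : IsWedgeDatum B m δ p) (h : r + m = n) (φW : Phi r W LW) (φC : Phi m C LC)
    (ψ : Phi n F D) (i : ι) (s : Sec LW (B i).1) (t : Sec LC (B i).1) :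
    secMap H h φW φC ψ i (s ⊗ₜ t) = (ψ (B i)).symm (secPairing H h i (φW (B i) s) (φC (B i) t)) := rfl

theorem secMap_ιMulti (H : IsWedgeDatum B m δ p) (h : r + m = n) (φW : Phi r W LW) (φC : Phi m C LC)
    (ψ : Phi n F D) (i : ι) (x : Fin r → Sec F (B i).1) (y : Fin m → Sec C (B i).1) :
    secMap H h φW φC ψ i ((φW (B i)).symm (exteriorPower.ιMulti _ r (fun j => appS p (B i).1 (x j))) ⊗ₜ
        (φC (B i)).symm (exteriorPower.ιMulti _ m y)) =
      (ψ (B i)).symm (exteriorPower.ιMulti _ n (Fin.append x (appS δ (B i).1 ∘ y) ∘ Fin.cast h.symm)) := by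
  rw [secMap_tmul, LinearEquiv.apply_symm_apply, LinearEquiv.apply_symm_apply, secPairing_ιMulti]

/-- Compatibility with restriction. -/
theorem secMap_res (H : IsWedgeDatum B m δ p) (h : r + m = n) (φW : Phi r W LW) (hφW : PhiComp φW)
    (φC : Phi m C LC) (hφC : PhiComp φC) (ψ : Phi n F D) (hψ : PhiComp ψ) (i k : ι)
    (hV : (B k).1 ≤ (B i).1) (s : Sec LW (B i).1) (t : Sec LC (B i).1) :
    secMap H h φW φC ψ k (res LW hV s ⊗ₜ[Γ(X, (B k).1)] res LC hV t) =
      res D hV (secMap H h φW φC ψ i (s ⊗ₜ[Γ(X, (B i).1)] t)) := by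
  refine phi_induction φW (B i) (C := fun s =>
      secMap H h φW φC ψ k (res LW hV s ⊗ₜ[Γ(X, (B k).1)] res LC hV t) =
      res D hV (secMap H h φW φC ψ i (s ⊗ₜ[Γ(X, (B i).1)] t))) ?_ ?_ ?_ ?_ s
  · rw [map_zero, TensorProduct.zero_tmul, TensorProduct.zero_tmul]
    simp only [map_zero]
  · intro x x' hx hx'
    rw [map_add, TensorProduct.add_tmul, TensorProduct.add_tmul, map_add, map_add, hx, hx', map_add]
  · intro a x hx
    rw [res_smul, ← TensorProduct.smul_tmul', ← TensorProduct.smul_tmul', map_smul, map_smul, hx, res_smul]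
  · intro e
    refine phi_induction φC (B i) (C := fun t => secMap H h φW φC ψ k
        (res LW hV ((φW (B i)).symm (exteriorPower.ιMulti _ r e)) ⊗ₜ[Γ(X, (B k).1)] res LC hV t) =
      res D hV (secMap H h φW φC ψ i
        ((φW (B i)).symm (exteriorPower.ιMulti _ r e) ⊗ₜ[Γ(X, (B i).1)] t)))
      ?_ ?_ ?_ ?_ t
    · rw [map_zero, TensorProduct.tmul_zero, TensorProduct.tmul_zero]
      simp only [map_zero]
    · intro x x' hx hx'
      rw [map_add, TensorProduct.tmul_add, TensorProduct.tmul_add, map_add, map_add, hx, hx', map_add]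
    · intro a x hx
      rw [res_smul, TensorProduct.tmul_smul, TensorProduct.tmul_smul, map_smul, map_smul, hx, res_smul]
    · intro e'
      choose x hx using fun j => H.surj i (e j)
      obtain rfl : e = fun j => appS p (B i).1 (x j) := funext fun j => (hx j).symm
      rw [hφW (B i) (B k) hV, hφC (B i) (B k) hV, secMap_ιMulti, hψ (B i) (B k) hV]
      have h1 : (fun j => res W hV (appS p (B i).1 (x j))) = fun j => appS p (B k).1 (res F hV (x j)) :=
        funext fun j => (appS_res p hV (x j)).symm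
      rw [h1, secMap_ιMulti]
      congr 2
      funext j
      simp only [Function.comp_apply]
      induction (Fin.cast h.symm j) using Fin.addCases with
      | left i => simp only [Fin.append_left]
      | right i => simp only [Fin.append_right, Function.comp_apply]; exact appS_res δ hV (e' i)

/-- **The wedge morphism.** -/
theorem exists_wdg (hB : Opens.IsBasis (Set.range fun i => (B i).1)) (H : IsWedgeDatum B m δ p)
    (h : r + m = n) (φW : Phi r W LW) (hφW : PhiComp φW)
    (φC : Phi m C LC) (hφC : PhiComp φC) (ψ : Phi n F D) (hψ : PhiComp ψ) :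
    ∃ g : CohB1.tensorMod LW LC ⟶ D, ∀ (i : ι) (t : Sec LW (B i).1 ⊗[Γ(X, (B i).1)] Sec LC (B i).1),
      appS g (B i).1 (tau LW LC (B i).1 t) = secMap H h φW φC ψ i t :=
  exists_tensor_hom hB LW LC D (fun i => secMap H h φW φC ψ i)
    (fun i k hV s t => secMap_res H h φW hφW φC hφC ψ hψ i k hV s t)

end Groth.Agent.Dual.H366.WedgeSheaf
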